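import Cfsg.Agent.H528.DG.TwFour
import Cfsg.Agent.H891.DG.Tools

/-!
# S4180, task K7: `Coh` for `²F₄(q)` (helper528)
-/

set_option autoImplicit false

namespace Cfsg.Agent.H528.DG

open Subgroup Cfsg.Agent.H891.DG

universe u

/-- **`Coh` for `²F₄(q)`, `q ≥ 8`.** -/
theorem coh_twF4 (T : Type u) [Group T] [Finite T] [IsSimpleGroup T] (h : Cfsg.Lie.Iso2F4 T) : Coh T := by
  obtain ⟨hna, ⟨A, c, hA, hc, hc1, hAc⟩, H, H₁, n, u, hH, hn, hn', hH₁, hne, hu, hT⟩ := TwFour.facts h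
  intro p hp
  by_cases hp2 : p = 2
  · subst hp2
    exact Tools.cohAt_of_torus' hp hH hn' hH₁ hne hu hT
  · refine Tools.cohAt_of_coprime_involution hp hna (A := A) ?_ hc hc1 hAc
    intro hd
    have hF : Fact (Nat.Prime 2) := ⟨Nat.prime_two⟩
    obtain ⟨k, hk⟩ := IsPGroup.iff_card.1 hA
    rw [hk] at hd
    exact hp2 ((Nat.prime_dvd_prime_iff_eq hp Nat.prime_two).1 (hp.dvd_of_dvd_pow hd))

end Cfsg.Agent.H528.DG
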