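import Cfsg.Agent.KFacts.TwF4.SylU
import Cfsg.Agent.KFacts.TwF4.Rot
import Cfsg.Agent.H136.TwFour

/-!
# `²F₄(q)`, `q ≥ 8`: two ways to generate the group (helper528, S4180, task K7)

* `exists_two` : `T = ⟨A, c⟩`, `A` a 2-group, `c` an involution;
* `exists_torus` : `T = ⟨H, u n⟩`, `H` the torus, `n` the rotation, `u` a root element centralised by a nontrivial
  subgroup of `H`.
-/

set_option autoImplicit false
set_option linter.unusedSectionVars false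

namespace Cfsg.Agent.H528.DG.TwFour

open Subgroup
open Cfsg.Agent.KFacts.TwF4 Cfsg.Agent.SplitTwo Cfsg.Agent.SplitTwo.ZS Cfsg.Agent.TitsThree.RankTwoZ
open Cfsg.Agent.KFacts.TwF4.Arc Cfsg.Agent.KFacts.TwF4.Inv

universe u

/-! ### the group with coordinates -/

section

variable {F : Type*} [Field F] {σ : F →+* F} {G : Type u} [Group G] (S : Full σ G)

theorem not_comm : S.rot * S.e 0 1 0 ≠ S.e 0 1 0 * S.rot := by
  intro h
  have h1 := S.rot_e 0 1 0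
  rw [h, mul_inv_cancel_right, zero_add] at h1
  have h2 : S.e 0 1 0 ∈ S.XZ 0 := mem_X0 S |>.2 ⟨1, 0, rfl⟩
  have h3 : S.e 0 1 0 ∈ S.XZ 2 := mem_X2 S |>.2 ⟨1, 0, h1.symm⟩
  exact one_ne_zero (S.e_eq_one (S.X_inf_near (by norm_num) (by norm_num) h2 h3)).1

theorem rot_top {M : Subgroup G} (h1 : S.XZ 1 ≤ M) (h8 : S.XZ 8 ≤ M) (hr : S.rot ^ 4 ∈ M) [Finite F] : M = ⊤ := by
  have key : ∀ j : ℤ, S.XZ j ≤ M → S.XZ (j + 8) ≤ M := by
    intro j hj x hx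
    have h2 : S.rot ^ (4 : ℤ) * ((S.rot ^ (4 : ℤ))⁻¹ * x * S.rot ^ (4 : ℤ)) * (S.rot ^ (4 : ℤ))⁻¹ = x := by group
    have h3 : (S.rot ^ (4 : ℤ))⁻¹ * x * S.rot ^ (4 : ℤ) ∈ S.XZ j := by
      rw [← S.rotk_X 4 j, h2]
      exact hx
    have hr' : S.rot ^ (4 : ℤ) ∈ M := by exact_mod_cast hr
    rw [← h2]
    exact mul_mem (mul_mem hr' (hj h3)) (inv_mem hr')
  have h9 : S.XZ 9 ≤ M := key 1 h1
  have h16 : S.XZ 16 ≤ M := key 8 h8
  have h0 : S.XZ 0 ≤ M := by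
    have e1 : S.XZ 16 = S.XZ 0 := by
      show S.R.X ((16 : ℤ) : ZMod (2 * 8)) = S.R.X ((0 : ℤ) : ZMod (2 * 8))
      congr 1
    rw [← e1]
    exact h16
  exact eq_top_of S h0 h1 h8 h9

theorem rot_eight [Finite F] (hc : center G = ⊥) : S.rot ^ 8 = 1 := by
  have h1 : centralizer ({S.rot ^ 8} : Set G) = ⊤ := by
    have ho : ∀ a t, S.rot ^ 8 * S.o a t * (S.rot ^ 8)⁻¹ = S.o a t := by
      intro a t
      rw [S.rotn_o 8 a t]
      congr 1
      have : ((8 : ℕ) : ZMod 8) = 0 := by decide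
      rw [this, add_zero]
    have he : ∀ a p u, S.rot ^ 8 * S.e a p u * (S.rot ^ 8)⁻¹ = S.e a p u := by
      intro a p u
      rw [S.rotn_e 8 a p u]
      congr 1
      have : ((8 : ℕ) : ZMod 8) = 0 := by decide
      rw [this, add_zero]
    refine eq_top_of S ?_ ?_ ?_ ?_
    · intro x hx
      obtain ⟨p, u, rfl⟩ := (mem_X0 S).1 hx
      exact mem_centralizer_singleton_iff.2 (mul_inv_eq_iff_eq_mul.1 (he _ p u)).symm
    · intro x hx
      obtain ⟨t, rfl⟩ := (mem_X1 S).1 hx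
      exact mem_centralizer_singleton_iff.2 (mul_inv_eq_iff_eq_mul.1 (ho _ t)).symm
    · intro x hx
      obtain ⟨p, u, rfl⟩ := (mem_X8 S).1 hx
      exact mem_centralizer_singleton_iff.2 (mul_inv_eq_iff_eq_mul.1 (he _ p u)).symm
    · intro x hx
      obtain ⟨t, rfl⟩ := (mem_X9 S).1 hx
      exact mem_centralizer_singleton_iff.2 (mul_inv_eq_iff_eq_mul.1 (ho _ t)).symm
  have h2 : S.rot ^ 8 ∈ center G := by
    rw [mem_center_iff]
    intro g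
    have h3 : g ∈ centralizer ({S.rot ^ 8} : Set G) := by rw [h1]; trivial
    exact mem_centralizer_singleton_iff.1 h3
  rw [hc] at h2
  exact mem_bot.1 h2

/-- **`T = ⟨A, c⟩`, `A` a 2-group, `c` an involution.** -/
theorem exists_two [Finite F] [Finite G] (hR : S.R.p = 2) (hc : center G = ⊥) :
    ∃ (A : Subgroup G) (c : G), IsPGroup 2 A ∧ c ^ 2 = 1 ∧ c ≠ 1 ∧ A ⊔ closure {c} = ⊤ := by
  have Z := S.zsys8
  have hU2 : IsPGroup 2 (J S.XZ 1 8) := isPGroup_J Z (two_X S hR) 8 1 8 (by norm_num) (by norm_num)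
  refine ⟨J S.XZ 1 8, S.rot ^ 4, hU2, ?_, ?_, ?_⟩
  · rw [← pow_mul]
    exact rot_eight S hc
  · intro h
    have h1 := S.rotn_e 4 0 1 0
    rw [h, one_mul, inv_one, mul_one] at h1
    have h2 : S.e 0 1 0 ∈ S.XZ 0 := (mem_X0 S).2 ⟨1, 0, rfl⟩
    have h3 : S.e 0 1 0 ∈ S.XZ (0 + 8) := (mem_X8 S).2 ⟨1, 0, by rw [h1]; rfl⟩
    exact one_ne_zero (S.e_eq_one (S.X_inf_opp h2 h3)).1
  · refine rot_top S ?_ ?_ ?_
    · exact (X_le_J le_rfl (by norm_num)).trans le_sup_left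
    · exact (X_le_J (by norm_num) le_rfl).trans le_sup_left
    · exact (le_sup_right : closure {S.rot ^ 4} ≤ _) (subset_closure rfl)

theorem rot_T {t : G} (ht : t ∈ S.T) : S.rot * t * S.rot⁻¹ ∈ S.T := by
  have h1 := S.rot_maps 1
  have h2 := S.rot_maps (-1)
  rw [zpow_one] at h1
  rw [zpow_neg_one] at h2
  have ht' : Maps S.R.X t id := ht
  have h3 : Maps S.R.X (S.rot * t * S.rot⁻¹) id := by
    refine ((h1.mul ht').mul h2).congr fun k => ?_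
    show ((2 * 1 : ℤ) : ZMod (2 * 8)) + id (((2 * (-1) : ℤ) : ZMod (2 * 8)) + k) = id k
    rw [id, id, ← add_assoc]
    have : ((2 * 1 : ℤ) : ZMod (2 * 8)) + ((2 * (-1) : ℤ) : ZMod (2 * 8)) = 0 := by decide
    rw [this, zero_add]
  exact h3

theorem rot_T' {t : G} (ht : t ∈ S.T) : S.rot⁻¹ * t * S.rot ∈ S.T := by
  have h1 := S.rot_maps 1
  have h2 := S.rot_maps (-1)
  rw [zpow_one] at h1
  rw [zpow_neg_one] at h2
  have ht' : Maps S.R.X t id := ht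
  have h3 : Maps S.R.X (S.rot⁻¹ * t * S.rot) id := by
    refine ((h2.mul ht').mul h1).congr fun k => ?_
    show ((2 * (-1) : ℤ) : ZMod (2 * 8)) + id (((2 * 1 : ℤ) : ZMod (2 * 8)) + k) = id k
    rw [id, id, ← add_assoc]
    have : ((2 * (-1) : ℤ) : ZMod (2 * 8)) + ((2 * 1 : ℤ) : ZMod (2 * 8)) = 0 := by decide
    rw [this, zero_add]
  exact h3

theorem T_comm {s t : G} (hs : s ∈ S.T) (ht : t ∈ S.T) : s * t = t * s := by
  obtain ⟨c, d, rfl⟩ := S.mem_T.1 hs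
  obtain ⟨c', d', rfl⟩ := S.mem_T.1 ht
  rw [S.h_mul, S.h_mul, mul_comm c, mul_comm d]

theorem T_odd [Finite G] : ¬ 2 ∣ Nat.card S.T := by
  intro h
  have hF : Fact (Nat.Prime 2) := ⟨Nat.prime_two⟩
  obtain ⟨t, ht⟩ := exists_prime_orderOf_dvd_card' 2 h
  obtain ⟨c, d, hcd⟩ := S.mem_T.1 t.2
  have h1 : S.h c d ^ (2 ^ 1) = 1 := by
    rw [hcd, pow_one, ← Subgroup.coe_pow, ← ht, pow_orderOf_eq_one]
    rfl
  obtain ⟨rfl, rfl⟩ := SylU.torus_two S h1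
  have h2 : t = 1 := Subtype.ext (by rw [← hcd, S.h_one]; rfl)
  rw [h2, orderOf_one] at ht
  norm_num at ht

include S in
/-- **`T = ⟨H, u n⟩`.** -/
theorem exists_torus [Finite F] [CharP F 2] [Finite G] {d : Fˣ} (hd : ∀ x : Fˣ, x ∈ zpowers d) (hd1 : d ≠ 1) :
    ∃ (H H₁ : Subgroup G) (n u : G), (¬ 2 ∣ Nat.card H) ∧ (∀ h ∈ H, n * h * n⁻¹ ∈ H) ∧ (∀ h ∈ H, n⁻¹ * h * n ∈ H) ∧
      H₁ ≤ H ∧ H₁ ≠ ⊥ ∧ (∀ h ∈ H₁, h * u = u * h) ∧ H ⊔ closure {u * n} = ⊤ := by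
  have hdT : S.h d d ∈ S.T := S.mem_T.2 ⟨d, d, rfl⟩
  refine ⟨S.T, zpowers (S.h d 1), S.rot, S.e 1 1 0, T_odd S, fun h hh => rot_T S hh, fun h hh => rot_T' S hh,
    zpowers_le.2 (S.mem_T.2 ⟨d, 1, rfl⟩), ?_, ?_, ?_⟩
  · intro h
    have h1 : S.h d 1 = S.h 1 1 := by
      rw [S.h_one]
      exact zpowers_eq_bot.1 h
    exact hd1 (S.h_inj _ _ _ _ h1).1
  · rintro _ ⟨k, rfl⟩
    have h1 : S.h d 1 * S.e 1 1 0 * (S.h d 1)⁻¹ = S.e 1 1 0 := by
      rw [S.h_e, chE_one]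
      simp
    have h2 : Commute (S.h d 1) (S.e 1 1 0) := mul_inv_eq_iff_eq_mul.1 h1
    exact (h2.zpow_left k).eq
  · set M := S.T ⊔ closure {S.e 1 1 0 * S.rot} with hM
    have key := H136.TwFour.mem_of S.toSys S.sq (h := S.h d d) (c := d) (d := d) (S.h_e d d) hd1 hd1 hd
      (T_comm S hdT (rot_T S hdT)) (M := M) ((le_sup_left : S.T ≤ M) hdT)
      ((le_sup_right : closure {S.e 1 1 0 * S.rot} ≤ M) (subset_closure rfl))
    refine eq_top_of S ?_ ?_ ?_ ?_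
    · intro x hx
      obtain ⟨p, u, rfl⟩ := (mem_X0 S).1 hx
      exact key.1 _ p u
    · intro x hx
      obtain ⟨t, rfl⟩ := (mem_X1 S).1 hx
      exact key.2 _ t
    · intro x hx
      obtain ⟨p, u, rfl⟩ := (mem_X8 S).1 hx
      exact key.1 _ p u
    · intro x hx
      obtain ⟨t, rfl⟩ := (mem_X9 S).1 hx
      exact key.2 _ t

end

/-! ### transfer -/

section

variable {T : Type u} [Group T] {G : Type*} [Group G] (e : T ≃* G)

theorem map_sup_closure {A : Subgroup G} {c : G} (h : A ⊔ closure {c} = ⊤) :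
    A.map e.symm.toMonoidHom ⊔ closure {e.symm c} = ⊤ := by
  have h1 : closure {e.symm c} = (closure {c}).map e.symm.toMonoidHom := by
    rw [MonoidHom.map_closure, Set.image_singleton]
    rfl
  rw [h1, ← Subgroup.map_sup, h]
  exact Subgroup.map_top_of_surjective _ e.symm.surjective

include e in
theorem two_congr (h : ∃ (A : Subgroup G) (c : G), IsPGroup 2 A ∧ c ^ 2 = 1 ∧ c ≠ 1 ∧ A ⊔ closure {c} = ⊤) :
    ∃ (A : Subgroup T) (c : T), IsPGroup 2 A ∧ c ^ 2 = 1 ∧ c ≠ 1 ∧ A ⊔ closure {c} = ⊤ := by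
  obtain ⟨A, c, hA, hc, hc1, h⟩ := h
  refine ⟨A.map e.symm.toMonoidHom, e.symm c, hA.map _, by rw [← map_pow, hc, map_one], ?_, map_sup_closure e h⟩
  intro h1
  exact hc1 (e.symm.injective (h1.trans (map_one _).symm))

include e in
theorem torus_congr {p : ℕ} (h : ∃ (H H₁ : Subgroup G) (n u : G), (¬ p ∣ Nat.card H) ∧ (∀ h ∈ H, n * h * n⁻¹ ∈ H) ∧
      (∀ h ∈ H, n⁻¹ * h * n ∈ H) ∧ H₁ ≤ H ∧ H₁ ≠ ⊥ ∧ (∀ h ∈ H₁, h * u = u * h) ∧ H ⊔ closure {u * n} = ⊤) :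
    ∃ (H H₁ : Subgroup T) (n u : T), (¬ p ∣ Nat.card H) ∧ (∀ h ∈ H, n * h * n⁻¹ ∈ H) ∧ (∀ h ∈ H, n⁻¹ * h * n ∈ H) ∧
      H₁ ≤ H ∧ H₁ ≠ ⊥ ∧ (∀ h ∈ H₁, h * u = u * h) ∧ H ⊔ closure {u * n} = ⊤ := by
  obtain ⟨H, H₁, n, u, h1, h2, h3, h4, h5, h6, h7⟩ := h
  refine ⟨H.map e.symm.toMonoidHom, H₁.map e.symm.toMonoidHom, e.symm n, e.symm u, ?_, ?_, ?_, map_mono h4, ?_, ?_, ?_⟩
  · rwa [card_map_of_injective e.symm.injective]
  · rintro _ ⟨x, hx, rfl⟩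
    exact ⟨_, h2 x hx, by simp⟩
  · rintro _ ⟨x, hx, rfl⟩
    exact ⟨_, h3 x hx, by simp⟩
  · intro h
    exact h5 ((Subgroup.map_eq_bot_iff_of_injective _ e.symm.injective).1 h)
  · rintro _ ⟨x, hx, rfl⟩
    change e.symm x * e.symm u = e.symm u * e.symm x
    rw [← map_mul, h6 x hx, map_mul]
  · rw [← map_mul]
    exact map_sup_closure e h7

end

/-! ### the groups `²F₄(q)` -/

theorem center_eq_bot {T : Type*} [Group T] [IsSimpleGroup T] (h : ¬ IsMulCommutative T) : center T = ⊥ := by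
  rcases (inferInstance : (center T).Normal).eq_bot_or_eq_top with h1 | h1
  · exact h1
  · exfalso
    apply h
    refine ⟨⟨fun a b => ?_⟩⟩
    have : b ∈ center T := by rw [h1]; trivial
    exact mem_center_iff.1 this a

/-- the facts about `²F₄(q)` -/
theorem facts {T : Type u} [Group T] [Finite T] [IsSimpleGroup T] (h : Cfsg.Lie.Iso2F4 T) :
    (¬ IsMulCommutative T) ∧
    (∃ (A : Subgroup T) (c : T), IsPGroup 2 A ∧ c ^ 2 = 1 ∧ c ≠ 1 ∧ A ⊔ closure {c} = ⊤) ∧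
    ∃ (H H₁ : Subgroup T) (n u : T), (¬ 2 ∣ Nat.card H) ∧ (∀ h ∈ H, n * h * n⁻¹ ∈ H) ∧ (∀ h ∈ H, n⁻¹ * h * n ∈ H) ∧
      H₁ ≤ H ∧ H₁ ≠ ⊥ ∧ (∀ h ∈ H₁, h * u = u * h) ∧ H ⊔ closure {u * n} = ⊤ := by
  obtain ⟨K, _, _, m, hm, hK, ⟨e⟩⟩ := h
  have : CharP K 2 := Cfsg.Agent.ChevalleyStructure.TwF4.Twisted.charP_two hK
  obtain ⟨φ, hφ⟩ := Cfsg.Agent.ChevalleyStructure.TwF4.TwistedFix.exists_rln hK
  have hfin : Finite ↥(Cfsg.Lie.twistedF4 K (2 ^ m)) := Finite.of_equiv _ e.toEquiv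
  set S := Cfsg.Agent.KFacts.TwF4.Inst.full hK hφ with hS
  have hna : ¬ IsMulCommutative T := by
    intro hc
    apply not_comm S
    apply e.symm.injective
    rw [map_mul, map_mul]
    exact hc.is_comm.comm _ _
  have hcT : center T = ⊥ := center_eq_bot hna
  have hcG : center ↥(Cfsg.Lie.twistedF4 K (2 ^ m)) = ⊥ := by
    rw [eq_bot_iff]
    intro g hg
    have h1 : e.symm g ∈ center T := by
      rw [mem_center_iff]
      intro t
      apply e.injective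
      rw [map_mul, map_mul, e.apply_symm_apply]
      exact mem_center_iff.1 hg (e t)
    rw [hcT, mem_bot] at h1
    rw [mem_bot]
    exact e.symm.injective (h1.trans (map_one _).symm)
  obtain ⟨d, hd⟩ := IsCyclic.exists_generator (α := Kˣ)
  have hd1 : d ≠ 1 := by
    classical
    rintro rfl
    have h1 : Fintype.card Kˣ = 1 := by
      rw [Fintype.card_eq_one_iff]
      refine ⟨1, fun x => ?_⟩
      obtain ⟨n, hn⟩ := hd x
      simpa using hn.symm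
    rw [Fintype.card_units, hK] at h1
    have : 2 ^ 3 ≤ 2 ^ (2 * m + 1) := Nat.pow_le_pow_right (by norm_num) (by omega)
    omega
  exact ⟨hna, two_congr e (exists_two S rfl hcG), torus_congr e (exists_torus S hd hd1)⟩

end Cfsg.Agent.H528.DG.TwFour
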